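import Groth.Agent.Ega4late.H516.SymPow

/-!
# Symmetric powers along a surjective ring map

If `f : R → S` is surjective and `M` is an `S`-module whose `R`-module structure is the restriction
along `f`, then `Sym^ι_R(M) = Sym^ι_S(M)` for `ι` nonempty. (Stated for an explicit ring map, to avoid
instance diamonds.)
-/

set_option autoImplicit false

universe u v w

namespace Groth.Agent.Ega4late.H520.SymSurj

open Groth.Agent.Ega4late.H516

section

variable {R S : Type u} [CommRing R] [CommRing S] (f : R →+* S) (ι : Type u)
  (M : Type v) [AddCommGroup M] [Module R M] [Module S M] (hf : ∀ (r : R) (m : M), f r • m = r • m)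

/-- The symmetric power map over `R` to the one over `S` as a multilinear map over `R`. -/
noncomputable def multiR :
    letI : Module R (SymmetricPower S ι M) := Module.compHom _ f
    MultilinearMap R (fun _ : ι => M) (SymmetricPower S ι M) :=
  letI : Module R (SymmetricPower S ι M) := Module.compHom _ f
  { toFun := fun m => SymmetricPower.tprod S m
    map_update_add' := fun m i x y => by
      convert (SymmetricPower.tprod S (M := M) (ι := ι)).map_update_add m i x y
    map_update_smul' := fun m i r x => by
      have := (SymmetricPower.tprod S (M := M) (ι := ι)).map_update_smul m i (f r) x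
      rw [hf] at this
      change SymmetricPower.tprod S (Function.update m i (r • x)) =
        f r • SymmetricPower.tprod S (Function.update m i x)
      convert this }

/-- The canonical map `Sym_R(M) → Sym_S(M)`, `R`-linear for the restricted structure. -/
noncomputable def toS : SymmetricPower R ι M →+ SymmetricPower S ι M :=
  letI : Module R (SymmetricPower S ι M) := Module.compHom _ f
  (SymPow.lift (multiR f ι M hf)
    (fun e m => SymmetricPower.tprod_equiv (R := S) e m)).toAddMonoidHom

variable {M ι}

theorem toS_tprod (m : ι → M) :
    toS f ι M hf (SymmetricPower.tprod R m) = SymmetricPower.tprod S m := by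
  let _ : Module R (SymmetricPower S ι M) := Module.compHom _ f
  exact SymPow.lift_tprod (multiR f ι M hf)
    (fun e m => SymmetricPower.tprod_equiv (R := S) e m) m

theorem toS_smul (r : R) (x : SymmetricPower R ι M) :
    toS f ι M hf (r • x) = f r • toS f ι M hf x := by
  let _ : Module R (SymmetricPower S ι M) := Module.compHom _ f
  exact map_smul (SymPow.lift (multiR f ι M hf)
    (fun e m => SymmetricPower.tprod_equiv (R := S) e m)) r x

include hf in
/-- On a symmetric power of nonempty index type the scalars act through `S`. -/
theorem smul_eq_smul [Nonempty ι] (r r' : R) (h : f r = f r')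
    (x : SymmetricPower R ι M) : r • x = r' • x := by
  classical
  have : r • (LinearMap.id : SymmetricPower R ι M →ₗ[R] SymmetricPower R ι M) =
      r' • (LinearMap.id : SymmetricPower R ι M →ₗ[R] SymmetricPower R ι M) := by
    apply SymPow.hom_ext
    intro m
    obtain ⟨i⟩ := ‹Nonempty ι›
    have key : ∀ c : R, c • SymmetricPower.tprod R m =
        SymmetricPower.tprod R (Function.update m i (c • m i)) := by
      intro c
      rw [MultilinearMap.map_update_smul, Function.update_eq_self]
    simp only [LinearMap.smul_apply, LinearMap.id_apply]
    rw [key, key, ← hf r (m i), ← hf r' (m i), h]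
  exact congrArg (fun f : SymmetricPower R ι M →ₗ[R] SymmetricPower R ι M => f x) this

theorem toS_injective [Nonempty ι] (hs : Function.Surjective f) :
    Function.Injective (toS f ι M hf) := by
  classical
  let _ : SMul S (SymmetricPower R ι M) := ⟨fun s x => Function.surjInv hs s • x⟩
  have hsm : ∀ (c : R) (x : SymmetricPower R ι M), f c • x = c • x := fun c x =>
    smul_eq_smul f hf _ _ (Function.surjInv_eq hs _) x
  let _ : Module S (SymmetricPower R ι M) := Function.Surjective.moduleLeft f hs hsm
  let G₀ : MultilinearMap S (fun _ : ι => M) (SymmetricPower R ι M) :=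
    { toFun := fun m => SymmetricPower.tprod R m
      map_update_add' := fun m i x y => by
        convert (SymmetricPower.tprod R (M := M) (ι := ι)).map_update_add m i x y
      map_update_smul' := fun m i s x => by
        obtain ⟨r, rfl⟩ := hs s
        rw [hsm]
        have := (SymmetricPower.tprod R (M := M) (ι := ι)).map_update_smul m i r x
        rw [hf r x]
        convert this }
  let G : SymmetricPower S ι M →ₗ[S] SymmetricPower R ι M :=
    SymPow.lift G₀ (fun e m => SymmetricPower.tprod_equiv (R := R) e m)
  have hG : ∀ x : SymmetricPower R ι M, G (toS f ι M hf x) = x := by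
    intro x
    have hx : x ∈ Submodule.span R (Set.range (SymmetricPower.tprod R (M := M) (ι := ι))) := by
      rw [SymmetricPower.span_tprod_eq_top]; trivial
    induction hx using Submodule.span_induction with
    | mem x hx =>
      obtain ⟨m, rfl⟩ := hx
      rw [toS_tprod]
      exact SymPow.lift_tprod G₀ _ m
    | zero => simp
    | add x y _ _ hx hy => rw [map_add, map_add, hx, hy]
    | smul r x _ hx => rw [toS_smul, map_smul, hx, hsm]
  exact Function.LeftInverse.injective hG

theorem toS_surjective (hs : Function.Surjective f) :
    Function.Surjective (toS f ι M hf) := by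
  intro y
  have hy : y ∈ Submodule.span S (Set.range (SymmetricPower.tprod S (M := M) (ι := ι))) := by
    rw [SymmetricPower.span_tprod_eq_top]; trivial
  induction hy using Submodule.span_induction with
  | mem x hx =>
    obtain ⟨m, rfl⟩ := hx
    exact ⟨_, toS_tprod f hf m⟩
  | zero => exact ⟨0, map_zero _⟩
  | add x y _ _ hx hy =>
    obtain ⟨a, rfl⟩ := hx
    obtain ⟨b, rfl⟩ := hy
    exact ⟨a + b, map_add _ _ _⟩
  | smul s x _ hx =>
    obtain ⟨a, rfl⟩ := hx
    obtain ⟨r, rfl⟩ := hs s
    exact ⟨r • a, toS_smul f hf r a⟩

end

end Groth.Agent.Ega4late.H520.SymSurj
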