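import Groth.Agent.Ega4late.H516.CanonMap
import Groth.Agent.Ega4late.H520.SymSurj

/-!
# Differential smoothness as a condition on the diagonal ideal

`IsDiffSmooth A B` holds iff `I/I²` is projective over `(B ⊗ B)/I` and the canonical maps
`Sym^n(I/I²) → I^n/I^(n+1)` are bijective, `I` the kernel of multiplication.
-/

set_option autoImplicit false

open TensorProduct PP16

universe u

namespace Groth.Agent.Ega4late.H520.Translate

open Groth.Agent.Ega4late.H516

variable (A B : Type u) [CommRing A] [CommRing B] [Algebra A B]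

theorem mul_surjective :
    Function.Surjective (Algebra.TensorProduct.lmul' A : B ⊗[A] B →ₐ[A] B) := by
  intro b
  exact ⟨b ⊗ₜ 1, by simp⟩

theorem sub_mem_ideal (x : B ⊗[A] B) :
    x - (Algebra.TensorProduct.lmul' A x) ⊗ₜ[A] (1 : B) ∈ KaehlerDifferential.ideal A B := by
  rw [RingHom.mem_ker, map_sub, sub_eq_zero]
  simp

theorem lmul_smul (x : B ⊗[A] B) (ω : KaehlerDifferential A B) :
    (Algebra.TensorProduct.lmul' A x) • ω = x • ω := by
  have h1 : (Algebra.TensorProduct.lmul' A x) • ω =
      ((Algebra.TensorProduct.lmul' A x) ⊗ₜ[A] (1 : B)) • ω := by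
    have h2 : (Algebra.TensorProduct.lmul' A x) ⊗ₜ[A] (1 : B) =
      (Algebra.TensorProduct.lmul' A x) • (1 : B ⊗[A] B) := by
      rw [Algebra.TensorProduct.one_def, TensorProduct.smul_tmul', smul_eq_mul, mul_one]
    rw [h2, smul_assoc, one_smul]
  rw [h1, ← sub_eq_zero, ← sub_smul]
  apply Ideal.Cotangent.smul_eq_zero_of_mem
  rw [← neg_sub]
  exact (KaehlerDifferential.ideal A B).neg_mem (sub_mem_ideal A B x)

/-- The comparison map of symmetric powers. -/
noncomputable def T (ι : Type u) : SymmetricPower (B ⊗[A] B) ι (KaehlerDifferential.ideal A B).Cotangent →+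
    SymmetricPower B ι (KaehlerDifferential A B) :=
  SymSurj.toS (Algebra.TensorProduct.lmul' A : B ⊗[A] B →ₐ[A] B).toRingHom ι
    (KaehlerDifferential A B) (lmul_smul A B)

theorem T_tprod {ι : Type u} (x : ι → KaehlerDifferential.ideal A B) :
    T A B ι (SymmetricPower.tprod (B ⊗[A] B) (fun i => (KaehlerDifferential.ideal A B).toCotangent (x i))) =
      SymmetricPower.tprod B (fun i => KaehlerDifferential.fromIdeal A B (x i)) :=
  SymSurj.toS_tprod (Algebra.TensorProduct.lmul' A : B ⊗[A] B →ₐ[A] B).toRingHom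
    (lmul_smul A B) (fun i => KaehlerDifferential.fromIdeal A B (x i))

theorem T_smul {ι : Type u} (r : B ⊗[A] B)
    (x : SymmetricPower (B ⊗[A] B) ι (KaehlerDifferential.ideal A B).Cotangent) :
    T A B ι (r • x) = (Algebra.TensorProduct.lmul' A r) • T A B ι x :=
  SymSurj.toS_smul (Algebra.TensorProduct.lmul' A : B ⊗[A] B →ₐ[A] B).toRingHom
    (lmul_smul A B) r x

theorem T_injective {ι : Type u} [Nonempty ι] : Function.Injective (T A B ι) :=
  SymSurj.toS_injective (Algebra.TensorProduct.lmul' A : B ⊗[A] B →ₐ[A] B).toRingHom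
    (lmul_smul A B) (mul_surjective A B)

theorem T_surjective {ι : Type u} : Function.Surjective (T A B ι) :=
  SymSurj.toS_surjective (Algebra.TensorProduct.lmul' A : B ⊗[A] B →ₐ[A] B).toRingHom
    (lmul_smul A B) (mul_surjective A B)

open CanonMap

theorem exists_rep {ι : Type u} [Fintype ι]
    (x : SymmetricPower (B ⊗[A] B) ι (KaehlerDifferential.ideal A B).Cotangent) :
    ∃ (y : B ⊗[A] B) (hy : y ∈ KaehlerDifferential.ideal A B ^ Fintype.card ι),
      canonJ (B ⊗[A] B) (KaehlerDifferential.ideal A B) ι x =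
        qJ (B ⊗[A] B) (KaehlerDifferential.ideal A B) (Fintype.card ι) ⟨y, hy⟩ ∧
      canon A B ι (T A B ι x) = qI A B (Fintype.card ι) ⟨y, hy⟩ := by
  have hx : x ∈ Submodule.span (B ⊗[A] B) (Set.range (SymmetricPower.tprod (B ⊗[A] B)
      (M := (KaehlerDifferential.ideal A B).Cotangent) (ι := ι))) := by
    rw [SymmetricPower.span_tprod_eq_top]; trivial
  induction hx using Submodule.span_induction with
  | mem x hx =>
    obtain ⟨m, rfl⟩ := hx
    choose z hz using fun i => (KaehlerDifferential.ideal A B).toCotangent_surjective (m i)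
    obtain rfl : (fun i => (KaehlerDifferential.ideal A B).toCotangent (z i)) = m := funext hz
    refine ⟨∏ i, (z i : B ⊗[A] B), CanonGen.prod_univ_mem _ (fun i => (z i : B ⊗[A] B))
      (fun i => (z i).2), ?_, ?_⟩
    · rw [canonJ_tprod]; rfl
    · rw [T_tprod, canon_tprod_fromIdeal]
  | zero => exact ⟨0, Ideal.zero_mem _, by rw [map_zero]; exact (map_zero _).symm,
      by rw [map_zero, map_zero]; exact (map_zero _).symm⟩
  | add x y _ _ hx hy =>
    obtain ⟨a, ha, h1, h2⟩ := hx
    obtain ⟨b, hb, h3, h4⟩ := hy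
    refine ⟨a + b, Ideal.add_mem _ ha hb, ?_, ?_⟩
    · rw [map_add, h1, h3]; exact (map_add _ _ _).symm
    · rw [map_add, map_add, h2, h4]; exact (map_add _ _ _).symm
  | smul r x _ hx =>
    obtain ⟨a, ha, h1, h2⟩ := hx
    refine ⟨r * a, Ideal.mul_mem_left _ _ ha, ?_, ?_⟩
    · rw [map_smul, h1]; exact (map_smul _ _ _).symm
    · rw [T_smul, map_smul, h2, ← map_smul, ← sub_eq_zero, ← map_sub, qI_eq_zero_iff]
      change (Algebra.TensorProduct.lmul' A r) • a - r * a ∈ _
      have : (Algebra.TensorProduct.lmul' A r) • a - r * a =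
          -((r - (Algebra.TensorProduct.lmul' A r) ⊗ₜ[A] (1 : B)) * a) := by
        rw [sub_mul, neg_sub]
        congr 1
        rw [Algebra.smul_def]
        rfl
      rw [this, pow_succ']
      exact neg_mem (Ideal.mul_mem_mul (sub_mem_ideal A B r) ha)

theorem canon_injective_iff {ι : Type u} [Fintype ι] [Nonempty ι] :
    Function.Injective (canon A B ι) ↔
      Function.Injective (canonJ (B ⊗[A] B) (KaehlerDifferential.ideal A B) ι) := by
  constructor
  · intro h
    rw [injective_iff_map_eq_zero]
    intro x hx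
    obtain ⟨y, hy, h1, h2⟩ := exists_rep A B x
    have h3 : y ∈ KaehlerDifferential.ideal A B ^ (Fintype.card ι + 1) :=
      (qJ_eq_zero_iff _ _ _ _).1 (h1.symm.trans hx)
    have h4 : canon A B ι (T A B ι x) = 0 := h2.trans ((qI_eq_zero_iff _ _ _ _).2 h3)
    have h5 : T A B ι x = 0 := h (h4.trans (map_zero _).symm)
    exact T_injective A B (h5.trans (map_zero _).symm)
  · intro h
    rw [injective_iff_map_eq_zero]
    intro z hz
    obtain ⟨x, rfl⟩ := T_surjective A B z
    obtain ⟨y, hy, h1, h2⟩ := exists_rep A B x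
    have h3 : y ∈ KaehlerDifferential.ideal A B ^ (Fintype.card ι + 1) :=
      (qI_eq_zero_iff _ _ _ _).1 (h2.symm.trans hz)
    have h4 : canonJ (B ⊗[A] B) (KaehlerDifferential.ideal A B) ι x = 0 :=
      h1.trans ((qJ_eq_zero_iff _ _ _ _).2 h3)
    have h5 : x = 0 := h (h4.trans (map_zero _).symm)
    rw [h5, map_zero]

theorem exists_smul_of_isEmpty {ι : Type u} [IsEmpty ι] (m₀ : ι → KaehlerDifferential A B)
    (z : SymmetricPower B ι (KaehlerDifferential A B)) :
    ∃ b : B, z = b • SymmetricPower.tprod B m₀ := by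
  have hx : z ∈ Submodule.span B (Set.range (SymmetricPower.tprod B
      (M := KaehlerDifferential A B) (ι := ι))) := by
    rw [SymmetricPower.span_tprod_eq_top]; trivial
  induction hx using Submodule.span_induction with
  | mem x hx =>
    obtain ⟨m, rfl⟩ := hx
    exact ⟨1, by rw [one_smul, Subsingleton.elim m m₀]⟩
  | zero => exact ⟨0, by rw [zero_smul]⟩
  | add x y _ _ hx hy =>
    obtain ⟨a, rfl⟩ := hx
    obtain ⟨b, rfl⟩ := hy
    exact ⟨a + b, by rw [add_smul]⟩
  | smul r x _ hx =>
    obtain ⟨a, rfl⟩ := hx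
    exact ⟨r * a, by rw [mul_smul]⟩

/-- In degree zero the canonical map is always injective. -/
theorem canon_injective_of_isEmpty {ι : Type u} [Fintype ι] [IsEmpty ι] :
    Function.Injective (canon A B ι) := by
  rw [injective_iff_map_eq_zero]
  intro z hz
  obtain ⟨b, rfl⟩ := exists_smul_of_isEmpty A B
    (fun i : ι => KaehlerDifferential.fromIdeal A B (isEmptyElim i)) z
  rw [map_smul, canon_tprod_fromIdeal, ← map_smul, qI_eq_zero_iff] at hz
  have h1 : b • (∏ i : ι, ((isEmptyElim i : KaehlerDifferential.ideal A B) : B ⊗[A] B)) ∈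
      KaehlerDifferential.ideal A B ^ (Fintype.card ι + 1) := hz
  rw [Fintype.card_eq_zero, zero_add, pow_one, Finset.univ_eq_empty, Finset.prod_empty,
    RingHom.mem_ker] at h1
  have h2 : Algebra.TensorProduct.lmul' A (b • (1 : B ⊗[A] B)) = b := by
    rw [Algebra.TensorProduct.one_def, TensorProduct.smul_tmul', smul_eq_mul, mul_one]
    simp
  rw [h2] at h1
  rw [h1, zero_smul]

/-- The isomorphism `(B ⊗ B)/I ≃ B`. -/
noncomputable def quotEquiv : ((B ⊗[A] B) ⧸ KaehlerDifferential.ideal A B) ≃+* B :=
  RingHom.quotientKerEquivOfSurjective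
    (f := (Algebra.TensorProduct.lmul' A : B ⊗[A] B →ₐ[A] B).toRingHom) (mul_surjective A B)

theorem quotEquiv_mk (x : B ⊗[A] B) :
    quotEquiv A B (Ideal.Quotient.mk _ x) = Algebra.TensorProduct.lmul' A x := rfl

/-- The ring map underlying `quotEquiv`. -/
noncomputable abbrev qHom : ((B ⊗[A] B) ⧸ KaehlerDifferential.ideal A B) →+* B :=
  (quotEquiv A B).toRingHom

/-- The ring map underlying the inverse of `quotEquiv`. -/
noncomputable abbrev qInv : B →+* ((B ⊗[A] B) ⧸ KaehlerDifferential.ideal A B) :=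
  (quotEquiv A B).symm.toRingHom

local instance invPair : RingHomInvPair (qHom A B) (qInv A B) :=
  RingHomInvPair.of_ringEquiv (quotEquiv A B)

local instance invPair' : RingHomInvPair (qInv A B) (qHom A B) :=
  RingHomInvPair.of_ringEquiv (quotEquiv A B).symm

/-- The identity of `I/I²` as a semilinear equivalence. -/
noncomputable def cotEquiv :
    (KaehlerDifferential.ideal A B).Cotangent ≃ₛₗ[qHom A B]
      KaehlerDifferential A B :=
  { AddEquiv.refl (KaehlerDifferential A B) with
    map_smul' := by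
      intro c x
      obtain ⟨r, rfl⟩ := Ideal.Quotient.mk_surjective c
      obtain ⟨y, rfl⟩ := (KaehlerDifferential.ideal A B).toCotangent_surjective x
      change r • KaehlerDifferential.fromIdeal A B y =
        (Algebra.TensorProduct.lmul' A r) • KaehlerDifferential.fromIdeal A B y
      rw [lmul_smul] }

theorem projective_iff :
    Module.Projective B (KaehlerDifferential A B) ↔
      Module.Projective ((B ⊗[A] B) ⧸ KaehlerDifferential.ideal A B)
        (KaehlerDifferential.ideal A B).Cotangent :=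
  ⟨fun _ => Module.Projective.of_equiv (cotEquiv A B).symm,
    fun _ => Module.Projective.of_equiv (cotEquiv A B)⟩

/-- Differential smoothness as a condition on the diagonal ideal. -/
theorem isDiffSmooth_iff_symGr : IsDiffSmooth A B ↔
    Module.Projective ((B ⊗[A] B) ⧸ KaehlerDifferential.ideal A B)
        (KaehlerDifferential.ideal A B).Cotangent ∧
      SymGrBijective (B ⊗[A] B) (KaehlerDifferential.ideal A B) := by
  rw [isDiffSmooth_iff, projective_iff, symGrBijective_iff]
  refine and_congr Iff.rfl ⟨fun h ι _ _ => (canon_injective_iff A B).1 (h ι), fun h ι _ => ?_⟩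
  rcases isEmpty_or_nonempty ι with hι | hι
  · exact canon_injective_of_isEmpty A B
  · exact (canon_injective_iff A B).2 (h ι)

end Groth.Agent.Ega4late.H520.Translate
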